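import Mathlib
import Cfsg.Agent.H376.TL.RankOne

/-!
# Triangular kicks (helper376, for S2452, row E8(q); the pure matrix part of helper240's step (4))

`m` an invertible matrix `μ + (rank ≤ 1)`, `N` lower triangular with diagonal `(1, 1, 1, z, ..., z)`, `z ≠ 0, 1`: then
`N m - μ₁` has rank at least two for every `μ₁`.
-/

set_option autoImplicit false

namespace Cfsg.Agent.H376.TW

open Matrix

variable {K : Type*} [Field K]

/-- a matrix of rank at most one is `u φ` -/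
theorem exists_vecMulVec_le {m n : ℕ} (A : Matrix (Fin m) (Fin n) K) (h : A.rank ≤ 1) :
    ∃ (u : Fin m → K) (φ : Fin n → K), A = vecMulVec u φ := by
  rcases Nat.le_one_iff_eq_zero_or_eq_one.1 h with h0 | h1
  · refine ⟨0, 0, ?_⟩
    rw [Matrix.rank] at h0
    have h1 : A.mulVecLin.range = ⊥ := Submodule.finrank_eq_zero.1 h0
    rw [LinearMap.range_eq_bot] at h1
    ext i j
    have h2 := congrFun (LinearMap.congr_fun h1 (Pi.single j 1)) i
    rw [mulVecLin_apply, mulVec_single_one] at h2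
    rw [vecMulVec_apply, Pi.zero_apply, zero_mul]
    exact h2
  · obtain ⟨u, φ, -, -, h⟩ := Cfsg.Agent.H376.TL.exists_vecMulVec A h1
    exact ⟨u, φ, h⟩

/-- two equations in three unknowns -/
theorem det_eq_zero_of_two {u₁ φ₁ u₂ φ₂ : Fin 3 → K} : (vecMulVec u₁ φ₁ + vecMulVec u₂ φ₂).det = 0 := by
  have h1 : LinearMap.ker (Matrix.mulVecLin (Matrix.of ![φ₁, φ₂])) ≠ ⊥ := by
    apply LinearMap.ker_ne_bot_of_finrank_lt
    rw [Module.finrank_fin_fun, Module.finrank_fin_fun]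
    omega
  obtain ⟨w, hw, hw0⟩ := Submodule.exists_mem_ne_zero_of_ne_bot h1
  rw [LinearMap.mem_ker, mulVecLin_apply] at hw
  have e1 : φ₁ ⬝ᵥ w = 0 := congrFun hw 0
  have e2 : φ₂ ⬝ᵥ w = 0 := congrFun hw 1
  rw [← exists_mulVec_eq_zero_iff]
  refine ⟨w, hw0, ?_⟩
  rw [add_mulVec, vecMulVec_mulVec, vecMulVec_mulVec, e1, e2, MulOpposite.op_zero, zero_smul, zero_smul, add_zero]

/-- a lower triangular matrix with three nonzero diagonal entries has rank at least three -/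
theorem tri_ne {n : ℕ} (T : Matrix (Fin n) (Fin n) K) (hT : ∀ i j, i < j → T i j = 0) (e : Fin 3 → Fin n)
    (he : StrictMono e) (hd : ∀ a, T (e a) (e a) ≠ 0) (u₁ φ₁ u₂ φ₂ : Fin n → K) :
    T ≠ vecMulVec u₁ φ₁ + vecMulVec u₂ φ₂ := by
  intro h
  have h1 : (T.submatrix e e).det = 0 := by
    rw [h]
    exact det_eq_zero_of_two (u₁ := u₁ ∘ e) (φ₁ := φ₁ ∘ e) (u₂ := u₂ ∘ e) (φ₂ := φ₂ ∘ e)
  have h2 : (T.submatrix e e).BlockTriangular OrderDual.toDual := by
    intro i j hij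
    exact hT _ _ (he hij)
  rw [det_of_lowerTriangular _ h2] at h1
  obtain ⟨a, -, ha⟩ := Finset.prod_eq_zero_iff.1 h1
  exact hd a ha

theorem tri_good {z : K} (hz1 : z ≠ 1) (N m : Matrix (Fin 8) (Fin 8) K)
    (hN : ∀ i j, i < j → N i j = 0) (hd1 : ∀ i : Fin 8, i.val < 3 → N i i = 1) (hd2 : ∀ i : Fin 8, 3 ≤ i.val → N i i = z)
    (hm : m.det ≠ 0) {μ : K} (hb : (m - Matrix.scalar (Fin 8) μ).rank ≤ 1) (μ₁ : K) :
    2 ≤ (N * m - Matrix.scalar (Fin 8) μ₁).rank := by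
  by_contra hcon
  obtain ⟨u, φ, hu⟩ := exists_vecMulVec_le _ hb
  obtain ⟨u₁, φ₁, hu₁⟩ := exists_vecMulVec_le _ (by omega : (N * m - Matrix.scalar (Fin 8) μ₁).rank ≤ 1)
  have hm' : m = μ • (1 : Matrix (Fin 8) (Fin 8) K) + vecMulVec u φ := by
    rw [← hu, scalar_apply, smul_one_eq_diagonal]
    abel
  have hμ : μ ≠ 0 := by
    rintro rfl
    apply hm
    rw [hm', zero_smul, zero_add, det_vecMulVec]
  have key : μ • N - Matrix.scalar (Fin 8) μ₁ = vecMulVec u₁ φ₁ + vecMulVec (-(N *ᵥ u)) φ := by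
    rw [← hu₁, hm', Matrix.mul_add, Matrix.mul_smul, Matrix.mul_one, mul_vecMulVec, neg_vecMulVec]
    abel
  have hT : ∀ i j : Fin 8, i < j → (μ • N - Matrix.scalar (Fin 8) μ₁) i j = 0 := by
    intro i j hij
    rw [Matrix.sub_apply, Matrix.smul_apply, hN i j hij, scalar_apply, diagonal_apply_ne _ hij.ne, smul_zero, sub_zero]
  have hD : ∀ i : Fin 8, (μ • N - Matrix.scalar (Fin 8) μ₁) i i = μ * N i i - μ₁ := by
    intro i
    rw [Matrix.sub_apply, Matrix.smul_apply, scalar_apply, diagonal_apply_eq, smul_eq_mul]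
  by_cases h1 : μ = μ₁
  · have h2 : μ * z - μ₁ ≠ 0 := by
      rw [← h1]
      intro h3
      have : μ * (z - 1) = 0 := by linear_combination h3
      rcases mul_eq_zero.1 this with h4 | h4
      · exact hμ h4
      · exact hz1 (sub_eq_zero.1 h4)
    refine tri_ne _ hT ![3, 4, 5] ?_ ?_ _ _ _ _ key
    · intro a b hab
      fin_cases a <;> fin_cases b <;> first | exact absurd hab (by decide) | decide
    · intro a
      have h5 : 3 ≤ (![(3 : Fin 8), 4, 5] a).val := by fin_cases a <;> decide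
      rw [hD, hd2 _ h5]
      exact h2
  · have h2 : μ * 1 - μ₁ ≠ 0 := by rw [mul_one]; exact sub_ne_zero.2 h1
    refine tri_ne _ hT ![0, 1, 2] ?_ ?_ _ _ _ _ key
    · intro a b hab
      fin_cases a <;> fin_cases b <;> first | exact absurd hab (by decide) | decide
    · intro a
      have h5 : (![(0 : Fin 8), 1, 2] a).val < 3 := by fin_cases a <;> decide
      rw [hD, hd1 _ h5]
      exact h2

/-- the mirror: `m N` with `N` upper triangular -/
theorem tri_good' {z : K} (hz1 : z ≠ 1) (N m : Matrix (Fin 8) (Fin 8) K)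
    (hN : ∀ i j, j < i → N i j = 0) (hd1 : ∀ i : Fin 8, i.val < 3 → N i i = 1) (hd2 : ∀ i : Fin 8, 3 ≤ i.val → N i i = z)
    (hm : m.det ≠ 0) {μ : K} (hb : (m - Matrix.scalar (Fin 8) μ).rank ≤ 1) (μ₁ : K) :
    2 ≤ (m * N - Matrix.scalar (Fin 8) μ₁).rank := by
  have hs : ∀ c : K, (Matrix.scalar (Fin 8) c)ᵀ = Matrix.scalar (Fin 8) c := by
    intro c
    rw [scalar_apply, diagonal_transpose]
  have h := tri_good hz1 Nᵀ mᵀ (fun i j hij => hN j i hij) hd1 hd2 (by rwa [det_transpose]) (μ := μ)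
    (by rw [← hs, ← transpose_sub, rank_transpose]; exact hb) μ₁
  rwa [← transpose_mul, ← hs, ← transpose_sub, rank_transpose] at h

/-- either `m` is good or `N m` is -/
theorem good_or {z : K} (hz1 : z ≠ 1) (N m : Matrix (Fin 8) (Fin 8) K)
    (hN : ∀ i j, i < j → N i j = 0) (hd1 : ∀ i : Fin 8, i.val < 3 → N i i = 1) (hd2 : ∀ i : Fin 8, 3 ≤ i.val → N i i = z)
    (hm : m.det ≠ 0) : (∀ μ₁ : K, 2 ≤ (m - Matrix.scalar (Fin 8) μ₁).rank) ∨
      ∀ μ₁ : K, 2 ≤ (N * m - Matrix.scalar (Fin 8) μ₁).rank := by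
  by_cases h : ∀ μ₁ : K, 2 ≤ (m - Matrix.scalar (Fin 8) μ₁).rank
  · exact Or.inl h
  · push Not at h
    obtain ⟨μ, hμ⟩ := h
    exact Or.inr (tri_good hz1 N m hN hd1 hd2 hm (by omega : (m - Matrix.scalar (Fin 8) μ).rank ≤ 1))

theorem good_or' {z : K} (hz1 : z ≠ 1) (N m : Matrix (Fin 8) (Fin 8) K)
    (hN : ∀ i j, j < i → N i j = 0) (hd1 : ∀ i : Fin 8, i.val < 3 → N i i = 1) (hd2 : ∀ i : Fin 8, 3 ≤ i.val → N i i = z)
    (hm : m.det ≠ 0) : (∀ μ₁ : K, 2 ≤ (m - Matrix.scalar (Fin 8) μ₁).rank) ∨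
      ∀ μ₁ : K, 2 ≤ (m * N - Matrix.scalar (Fin 8) μ₁).rank := by
  by_cases h : ∀ μ₁ : K, 2 ≤ (m - Matrix.scalar (Fin 8) μ₁).rank
  · exact Or.inl h
  · push Not at h
    obtain ⟨μ, hμ⟩ := h
    exact Or.inr (tri_good' hz1 N m hN hd1 hd2 hm (by omega : (m - Matrix.scalar (Fin 8) μ).rank ≤ 1))

end Cfsg.Agent.H376.TW
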